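import Mathlib
import Cfsg.Agent.S0618
import Cfsg.Agent.S0609
import Cfsg.Agent.Lib.Core.Cores

/-!
# Thompson's lemma on automizers of `p`-subgroups of order divisible by `q`
-/

set_option autoImplicit false

namespace CfsgLib.QAut

open Subgroup Cfsg CfsgLib.PLocal

universe u

variable {G : Type*} [Group G] {p q : ℕ}

theorem index_dvd_of_mul [Finite G] {A B : Subgroup G} (h : ∀ g : G, ∃ a ∈ A, ∃ b ∈ B, g = a * b) :
    A.index ∣ Nat.card B := by
  haveI : MulAction.IsPretransitive B (G ⧸ A) := by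
    rw [MulAction.isPretransitive_iff_base ((1 : G) : G ⧸ A)]
    intro x
    obtain ⟨g, rfl⟩ := QuotientGroup.mk_surjective x
    obtain ⟨a, ha, b, hb, e⟩ := h g⁻¹
    refine ⟨⟨b⁻¹, B.inv_mem hb⟩, ?_⟩
    change (((b⁻¹ * 1 : G)) : G ⧸ A) = g
    rw [QuotientGroup.eq, show g = b⁻¹ * a⁻¹ by rw [← mul_inv_rev, ← e, inv_inv]]
    simpa using ha
  rw [index, ← MulAction.index_stabilizer_of_transitive B ((1 : G) : G ⧸ A)]
  exact index_dvd_card _

theorem relIndex_eq_index [Finite G] {L M : Subgroup G} [L.Normal] (h : L ⊔ M = ⊤) :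
    (L ⊓ M).relIndex L = M.index := by
  have e1 := relIndex_mul_index (inf_le_left : L ⊓ M ≤ L)
  have e2 := relIndex_mul_index (inf_le_right : L ⊓ M ≤ M)
  rw [inf_relIndex_right, ← relIndex_sup_left, h, relIndex_top_right, ← e1, mul_comm] at e2
  exact (Nat.eq_of_mul_eq_mul_right (Nat.pos_of_ne_zero index_ne_zero_of_finite) e2).symm

theorem exists_lift [Finite G] [hq : Fact q.Prime] {X : Type*} [Group X] (f : G →* X) (a : G)
    {k : ℕ} (h : f a ^ q ^ k = 1) : ∃ y ∈ zpowers a, f y = f a ∧ ∃ j, y ^ q ^ j = 1 := by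
  obtain ⟨j, m, hm, e⟩ := Nat.exists_eq_pow_mul_and_not_dvd (orderOf_pos a).ne' q hq.out.ne_one
  have hc : m.Coprime (orderOf (f a)) :=
    (((Nat.Prime.coprime_iff_not_dvd hq.out).mpr hm).symm.pow_right k).coprime_dvd_right
      (orderOf_dvd_of_pow_eq_one h)
  obtain ⟨n, hn⟩ := exists_pow_eq_self_of_coprime hc
  refine ⟨(a ^ m) ^ n, pow_mem (pow_mem (mem_zpowers a) m) n, by rw [map_pow, map_pow, hn], j, ?_⟩
  rw [← pow_mul, ← pow_mul, show m * (n * q ^ j) = q ^ j * m * n by ring, ← e, pow_mul,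
    pow_orderOf_eq_one, one_pow]

theorem exists_q_elt [Finite G] [hq : Fact q.Prime] {X : Type*} [Group X] (f : G →* X)
    (A : Subgroup G) (h : q ∣ Nat.card (A.map f)) : ∃ y ∈ A, f y ≠ 1 ∧ ∃ j, y ^ q ^ j = 1 := by
  haveI : Finite (A.map f) := Finite.of_surjective _ (f.subgroupMap_surjective A)
  obtain ⟨⟨_, a, ha, rfl⟩, hu⟩ := exists_prime_orderOf_dvd_card' q h
  rw [← Subgroup.orderOf_coe] at hu
  obtain ⟨y, hy, e, hj⟩ := exists_lift (q := q) f a (k := 1)
    (by rw [pow_one, ← hu]; exact pow_orderOf_eq_one _)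
  refine ⟨y, zpowers_le.mpr ha hy, fun h1 => hq.out.ne_one ?_, hj⟩
  rw [← hu, orderOf_eq_one_iff]
  exact e.symm.trans h1

theorem fact_eq [Finite G] [hp : Fact p.Prime] {L : Subgroup G} (h : ¬ p ∣ L.index) :
    (Nat.card L).factorization p = (Nat.card G).factorization p := by
  rw [← L.card_mul_index, Nat.factorization_mul Nat.card_pos.ne' index_ne_zero_of_finite,
    Finsupp.add_apply, Nat.factorization_eq_zero_of_not_dvd h, add_zero]

theorem fact_le [Finite G] {L M : Subgroup G} (h : L ≤ M) :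
    (Nat.card L).factorization p ≤ (Nat.card M).factorization p :=
  (Nat.factorization_le_iff_dvd Nat.card_pos.ne' Nat.card_pos.ne').mpr (card_dvd_of_le h) p

/-- Hall `{p, q}`-subgroups of `p`-solvable groups. -/
theorem exists_pq [hp : Fact p.Prime] [hq : Fact q.Prime] (n : ℕ) :
    ∀ (G : Type u) [Group G] [Finite G], Nat.card G = n → IsPSolvable p G →
      ∃ M : Subgroup G, ¬ p ∣ M.index ∧ ¬ q ∣ M.index ∧
        ∀ r : ℕ, r.Prime → r ∣ Nat.card M → r = p ∨ r = q := by
  induction n using Nat.strong_induction_on with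
  | _ n ih =>
  intro G _ _ hn hG
  rcases subsingleton_or_nontrivial G with h1 | h1
  · refine ⟨⊤, by simpa using hp.out.ne_one, by simpa using hq.out.ne_one, fun r hr h => ?_⟩
    rw [Nat.card_of_subsingleton (1 : (⊤ : Subgroup G)), Nat.dvd_one] at h
    exact absurd h hr.ne_one
  have hquot : ∀ (N : Subgroup G) [N.Normal], N ≠ ⊥ → ∃ M : Subgroup (G ⧸ N), ¬ p ∣ M.index ∧
      ¬ q ∣ M.index ∧ ∀ r : ℕ, r.Prime → r ∣ Nat.card M → r = p ∨ r = q := by
    intro N _ hN
    refine ih _ ?_ (G ⧸ N) rfl (PSolv.quotient hG N)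
    rw [← hn, N.card_eq_card_quotient_mul_card_subgroup]
    exact lt_mul_of_one_lt_right Nat.card_pos ((one_lt_card_iff_ne_bot N).mpr hN)
  have hgood : ∀ (N : Subgroup G) [N.Normal], N ≠ ⊥ →
      (∀ r : ℕ, r.Prime → r ∣ Nat.card N → r = p ∨ r = q) → ∃ M : Subgroup G, ¬ p ∣ M.index ∧
      ¬ q ∣ M.index ∧ ∀ r : ℕ, r.Prime → r ∣ Nat.card M → r = p ∨ r = q := by
    intro N _ hN hr
    obtain ⟨M, h1, h2, h3⟩ := hquot N hN
    have hs := QuotientGroup.mk'_surjective N
    refine ⟨M.comap (QuotientGroup.mk' N), by rwa [index_comap_of_surjective _ hs],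
      by rwa [index_comap_of_surjective _ hs], fun r hr' h => ?_⟩
    rw [PSolv.card_comap_of_surjective hs, QuotientGroup.ker_mk'] at h
    exact ((Nat.Prime.dvd_mul hr').mp h).elim (hr r hr') (h3 r hr')
  have hpg : ∀ {s : ℕ} [Fact s.Prime] {N : Subgroup G}, IsPGroup s N → ∀ r : ℕ, r.Prime →
      r ∣ Nat.card N → r = s := by
    intro s _ N hN r hr h
    obtain ⟨k, hk⟩ := hN.exists_card_eq
    rw [hk] at h
    exact (Nat.prime_dvd_prime_iff_eq hr Fact.out).mp (hr.dvd_of_dvd_pow h)
  rcases PSolv.pCore_ne_bot_or hG with h | h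
  · exact hgood _ h fun r hr h' => Or.inl (hpg PSolv.isPGroup_pCore r hr h')
  set K := pPrimeCore p G with hK
  have hKp : ¬ p ∣ Nat.card K := Core.not_dvd_card_pPrimeCore hp.out G
  obtain ⟨Q⟩ : Nonempty (Sylow q K) := inferInstance
  set Q' := (Q : Subgroup K).map K.subtype with hQ'
  have hF : normalizer (Q' : Set G) ⊔ K = ⊤ := Sylow.normalizer_sup_eq_top Q
  by_cases htop : normalizer (Q' : Set G) = ⊤
  · haveI : Q'.Normal := normalizer_eq_top_iff.mp htop
    by_cases hb : Q' = ⊥
    · have hKq : ¬ q ∣ Nat.card K := by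
        have := Q.not_dvd_index
        rwa [(map_eq_bot_iff_of_injective _ K.subtype_injective).mp hb, index_bot] at this
      obtain ⟨M, h1, h2, h3⟩ := hquot K h
      have hs := QuotientGroup.mk'_surjective K
      set L := M.comap (QuotientGroup.mk' K) with hL
      have hKL : K ≤ L := fun x hx => by
        rw [hL, mem_comap, QuotientGroup.mk'_apply, (QuotientGroup.eq_one_iff x).mpr hx]
        exact one_mem _
      have c1 : Nat.card (K.subgroupOf L) = Nat.card K :=
        Nat.card_congr (subgroupOfEquivOfLe hKL).toEquiv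
      have c2 : (K.subgroupOf L).index = Nat.card M := by
        have e1 := (K.subgroupOf L).card_mul_index
        rw [c1, hL, PSolv.card_comap_of_surjective hs, QuotientGroup.ker_mk'] at e1
        exact Nat.eq_of_mul_eq_mul_left Nat.card_pos e1
      obtain ⟨C, hC⟩ := exists_right_complement'_of_coprime (N := K.subgroupOf L) (by
        rw [c1, c2]
        exact Nat.coprime_of_dvd fun r hr a b => by
          rcases h3 r hr b with rfl | rfl
          · exact hKp a
          · exact hKq a)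
      have c3 : (C.map L.subtype).index = Nat.card K * M.index := by
        rw [index_map_subtype, hC.index_eq_card, c1, hL, index_comap_of_surjective _ hs]
      refine ⟨C.map L.subtype, ?_, ?_, fun r hr h' => h3 r hr ?_⟩
      · rw [c3]; exact fun h' => ((Nat.Prime.dvd_mul hp.out).mp h').elim hKp h1
      · rw [c3]; exact fun h' => ((Nat.Prime.dvd_mul hq.out).mp h').elim hKq h2
      · rwa [card_map_of_injective L.subtype_injective, ← hC.symm.index_eq_card, c2] at h'
    · exact hgood _ hb fun r hr h' => Or.inr (hpg (Q.isPGroup'.map _) r hr h')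
  · set L := normalizer (Q' : Set G) with hL
    obtain ⟨M, h1, h2, h3⟩ := ih _ (by
      rw [← hn]
      exact lt_of_le_of_ne (card_le_card_group L) fun e => htop (eq_top_of_card_eq _ e))
      L rfl (PSolv.subgroup hG L)
    have e1 := relIndex_eq_index (sup_comm L K ▸ hF)
    have hLp : ¬ p ∣ L.index := fun h' => hKp (h'.trans (e1 ▸ relIndex_dvd_card _ _))
    have hLq : ¬ q ∣ L.index := fun h' => Q.not_dvd_index (h'.trans (by
      rw [← e1, relIndex]
      refine index_dvd_of_le fun x hx => ?_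
      exact mem_subgroupOf.mpr ⟨x.2, le_normalizer (mem_map_of_mem _ hx)⟩))
    refine ⟨M.map L.subtype, ?_, ?_, fun r hr h' => h3 r hr ?_⟩
    · rw [index_map_subtype]; exact fun h' => ((Nat.Prime.dvd_mul hp.out).mp h').elim h1 hLp
    · rw [index_map_subtype]; exact fun h' => ((Nat.Prime.dvd_mul hq.out).mp h').elim h2 hLq
    · rwa [card_map_of_injective L.subtype_injective] at h'

theorem factorizable [Finite G] [hp : Fact p.Prime] (hG : IsPSolvable p G)
    (h6 : (p = 2 ∨ p = 3) → ¬ 6 ∣ Nat.card G) : IsThompsonFactorizable p G := by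
  rw [Agent.S0609.result]
  by_contra hn
  obtain ⟨h23, E, -, -, -, hnm, ⟨e⟩⟩ :=
    Agent.S0618.result (PSolv.quotient hG _) PSolv.pPrimeCore_quotient hn
  apply h6 h23
  have h1 := Nat.card_congr e.toEquiv
  rw [card_SL2_zmod] at h1
  have h2 : p * (p ^ 2 - 1) ∣ Nat.card E := h1 ▸ card_quotient_dvd_card _
  refine Dvd.dvd.trans ?_ (h2.trans ((card_subgroup_dvd_card E).trans
    (card_quotient_dvd_card (pPrimeCore p G))))
  rcases h23 with rfl | rfl <;> norm_num

theorem map_inf_centralizer {X : Type*} [Group X] {φ : G →* X} (hφ : Function.Injective φ)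
    (S : Subgroup G) : (S ⊓ centralizer (S : Set G)).map φ =
      S.map φ ⊓ centralizer (S.map φ : Set X) := by
  ext x
  constructor
  · rintro ⟨s, ⟨hs, hc⟩, rfl⟩
    refine ⟨⟨s, hs, rfl⟩, ?_⟩
    rintro _ ⟨t, ht, rfl⟩
    rw [← map_mul, ← map_mul, hc t ht]
  · rintro ⟨⟨s, hs, rfl⟩, hc⟩
    exact ⟨s, ⟨hs, fun t ht => hφ (by rw [map_mul, map_mul]; exact hc _ ⟨t, ht, rfl⟩)⟩, rfl⟩

theorem loc {N : Type u} [Group N] [Finite N] [Finite G] [hp : Fact p.Prime] [hq : Fact q.Prime]
    (h23 : ¬ ((p = 2 ∧ q = 3) ∨ (p = 3 ∧ q = 2))) (hN : IsPSolvable p N) {H : Subgroup N}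
    [H.Normal] (hH : IsPGroup p H) (hd : q ∣ (centralizer (H : Set N)).index) (φ : N →* G)
    (hφ : Function.Injective φ) :
    ∃ P W : Subgroup G, Nat.card P = p ^ (Nat.card N).factorization p ∧ W ≠ ⊥ ∧ W ≤ P ∧
      normalizer (P : Set G) ≤ normalizer (W : Set G) ∧ H.map φ ≤ P ∧
      ∃ y : N, y ∉ centralizer (H : Set N) ∧ (∃ k, y ^ q ^ k = 1) ∧
        φ y ∈ normalizer (W : Set G) := by
  obtain ⟨M, h1, h2, h3⟩ := exists_pq (p := p) (q := q) _ N rfl hN
  obtain ⟨S⟩ : Nonempty (Sylow p M) := inferInstance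
  have hScard : Nat.card ((S : Subgroup M).map M.subtype) = p ^ (Nat.card N).factorization p := by
    rw [card_map_of_injective M.subtype_injective, S.card_eq_multiplicity, fact_eq h1]
  have hHS : H ≤ (S : Subgroup M).map M.subtype :=
    hH.le_sylow_of_normal (Sylow.ofCard _ hScard)
  have hF : IsThompsonFactorizable p M := factorizable (PSolv.subgroup hN M) fun h h6 => by
    have a2 := h3 2 Nat.prime_two ((show 2 ∣ 6 by norm_num).trans h6)
    have a3 := h3 3 Nat.prime_three ((show 3 ∣ 6 by norm_num).trans h6)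
    omega
  set C := centralizer (H : Set N) with hC
  let f : M →* N ⧸ C := (QuotientGroup.mk' C).comp M.subtype
  set A := centralizer (omegaOne p ((S : Subgroup M) ⊓ centralizer ((S : Subgroup M) : Set M)) :
    Set M) with hA
  set B := normalizer (thompsonSubgroupOf p (S : Subgroup M) : Set M) with hB
  have hO : ∀ x ∈ pPrimeCore p M, f x = 1 := by
    intro x hx
    refine (QuotientGroup.eq_one_iff _).mpr fun h hh => ?_
    obtain ⟨s, -, rfl⟩ := hHS hh
    have hs : s ∈ pCore p M := Core.le_pCore (N := H.subgroupOf M) (hH.comap_subtype)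
      (mem_subgroupOf.mpr hh)
    exact congrArg Subtype.val (Core.pPrimeCore_le_centralizer_pCore hx s hs)
  have hq1 : q ∣ Nat.card f.range := by
    have e1 := f.range.card_mul_index
    have e2 : f.range.index ∣ M.index := by
      rw [MonoidHom.range_comp, range_subtype]
      exact index_map_dvd _ (QuotientGroup.mk'_surjective C)
    rw [index, ← e1] at hd
    exact ((Nat.Prime.dvd_mul hq.out).mp hd).resolve_right fun h => h2 (h.trans e2)
  have hq2 : q ∣ Nat.card (A.map f.rangeRestrict) ∨ q ∣ Nat.card (B.map f.rangeRestrict) := by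
    rw [← (A.map f.rangeRestrict).card_mul_index] at hq1
    refine ((Nat.Prime.dvd_mul hq.out).mp hq1).imp id fun h => h.trans (index_dvd_of_mul ?_)
    intro g
    obtain ⟨g, rfl⟩ := f.rangeRestrict_surjective g
    obtain ⟨x, hx, c, hc, n, hn, rfl⟩ := hF S g
    refine ⟨_, mem_map_of_mem _ hc, _, mem_map_of_mem _ hn, Subtype.ext ?_⟩
    simp [hO x hx]
  let ψ : M →* G := φ.comp M.subtype
  have hψ : Function.Injective ψ := hφ.comp M.subtype_injective
  set P := (S : Subgroup M).map ψ with hP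
  have hPc : Nat.card P = p ^ (Nat.card N).factorization p := by
    rw [hP, ← map_map, card_map_of_injective hφ, hScard]
  have hHP : H.map φ ≤ P := by rw [hP, ← map_map]; exact map_mono hHS
  have hH1 : H ≠ ⊥ := by
    rintro rfl
    have : C = ⊤ := by rw [hC, eq_top_iff]; intro x _ h hh; rw [mem_bot.mp hh]; simp
    rw [this, index_top, Nat.dvd_one] at hd
    exact hq.out.ne_one hd
  have hP1 : P ≠ ⊥ := fun h => hH1 ((map_eq_bot_iff_of_injective _ hφ).mp (le_bot_iff.mp (h ▸ hHP)))
  have hP2 : IsPGroup p P := IsPGroup.of_card hPc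
  have hne : ∀ y : M, f.rangeRestrict y ≠ 1 → (y : N) ∉ C := fun y hy h =>
    hy (Subtype.ext ((QuotientGroup.eq_one_iff _).mpr h))
  rcases hq2 with h | h
  · obtain ⟨y, hy, hy1, k, hk⟩ := exists_q_elt _ _ h
    refine ⟨P, omegaOne p (P ⊓ centralizer (P : Set G)), hPc, ?_, ?_, ?_, hHP, y, hne y hy1,
      ⟨k, congrArg Subtype.val hk⟩, ?_⟩
    · refine omegaOne_ne_bot ?_
      rw [← map_center_subtype, card_map_subtype]
      haveI := (nontrivial_iff_ne_bot P).mpr hP1
      haveI := hP2.center_nontrivial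
      exact (hP2.to_subgroup _).card_eq_or_dvd.resolve_left Finite.one_lt_card.ne'
    · exact ((closure_le _).mpr fun x hx => hx.1.1)
    · refine le_trans ?_ (normalizer_le_normalizer_omegaOne _)
      rw [← map_center_subtype]
      exact Core.normalizer_le_normalizer_map_subtype_of_characteristic _
    · rw [hP, ← map_inf_centralizer hψ, ← map_omegaOne _ hψ]
      exact le_normalizer_map ψ (mem_map_of_mem ψ (centralizer_le_normalizer _ hy))
  · obtain ⟨y, hy, hy1, k, hk⟩ := exists_q_elt _ _ h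
    refine ⟨P, thompsonSubgroupOf p P, hPc, ?_, thompsonSubgroupOf_le _,
      normalizer_le_normalizer_thompsonSubgroupOf _, hHP, y, hne y hy1,
      ⟨k, congrArg Subtype.val hk⟩, ?_⟩
    · exact thompsonSubgroupOf_ne_bot (hP2.card_eq_or_dvd.resolve_left
        ((one_lt_card_iff_ne_bot P).mpr hP1).ne')
    · rw [hP, ← map_thompsonSubgroupOf hψ]
      exact le_normalizer_map ψ (mem_map_of_mem ψ hy)

theorem frat {N : Type u} [Group N] [Finite N] [hp : Fact p.Prime] [hq : Fact q.Prime]
    {H : Subgroup N} [H.Normal] (hH : IsPGroup p H) (hd : q ∣ (centralizer (H : Set N)).index) :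
    ∃ A : Subgroup N, IsPGroup p A ∧ H ≤ A ∧ ¬ p ∣ (normalizer (A : Set N)).index ∧
      (∃ y ∈ normalizer (A : Set N), y ∉ centralizer (H : Set N) ∧ ∃ k, y ^ q ^ k = 1) ∧
      (A ≤ H → IsPSolvable p (N ⧸ centralizer (H : Set N)) → IsPSolvable p N) := by
  set C := centralizer (H : Set N) with hC
  set T := H ⊔ C with hT
  obtain ⟨A⟩ : Nonempty (Sylow p T) := inferInstance
  set A' := (A : Subgroup T).map T.subtype with hA'
  have hF : normalizer (A' : Set N) ⊔ T = ⊤ := Sylow.normalizer_sup_eq_top A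
  have hHA : H ≤ A' := fun x hx =>
    ⟨⟨x, mem_sup_left hx⟩, (hH.comap_subtype (K := T)).le_sylow_of_normal A
      (mem_subgroupOf.mpr hx), rfl⟩
  have e1 := relIndex_eq_index (sup_comm (normalizer (A' : Set N)) T ▸ hF)
  refine ⟨A', A.isPGroup'.map _, hHA, fun h' => A.not_dvd_index (h'.trans ?_), ?_, ?_⟩
  · rw [← e1, relIndex]
    exact index_dvd_of_le fun x hx =>
      mem_subgroupOf.mpr ⟨x.2, le_normalizer (mem_map_of_mem _ hx)⟩
  · have h1 : (normalizer (A' : Set N)).map (QuotientGroup.mk' C) = ⊤ := by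
      rw [eq_top_iff, ← map_top_of_surjective _ (QuotientGroup.mk'_surjective C), ← hF, hT,
        ← sup_assoc, sup_eq_left.mpr (hHA.trans le_normalizer), Subgroup.map_sup,
        (map_eq_bot_iff C).mpr (by rw [QuotientGroup.ker_mk']), sup_bot_eq]
    obtain ⟨y, hy, hy1, hk⟩ := exists_q_elt (q := q) (QuotientGroup.mk' C)
      (normalizer (A' : Set N)) (by rw [h1, card_top]; exact hd)
    exact ⟨y, hy, fun h => hy1 ((QuotientGroup.eq_one_iff _).mpr h), hk⟩
  · intro hAH hs
    refine PSolv.of_normal_of_quotient T ?_ (PSolv.of_surjective hs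
      (QuotientGroup.map C T (MonoidHom.id N) le_sup_right) ?_)
    · refine PSolv.of_normal_of_quotient (H.subgroupOf T) (PSolv.of_isPGroup hH.comap_subtype)
        (PSolv.of_coprime ((Nat.Prime.coprime_iff_not_dvd hp.out).mpr fun h => A.not_dvd_index
          (h.trans (index_dvd_of_le fun x hx => hAH (mem_map_of_mem _ hx)))).symm)
    · intro x
      obtain ⟨x, rfl⟩ := QuotientGroup.mk_surjective x
      exact ⟨x, rfl⟩

/-- The solvability hypothesis. -/
def Sol (p : ℕ) (G : Type*) [Group G] : Prop :=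
  ∀ H : Subgroup G, IsPGroup p ↥H → IsPSolvable p (↥(normalizer (H : Set G)) ⧸
    (centralizer (H : Set G)).subgroupOf (normalizer (H : Set G)))

/-- A `q`-element acts nontrivially. -/
def Good (q : ℕ) (H : Subgroup G) : Prop :=
  ∃ y ∈ normalizer (H : Set G), y ∉ centralizer (H : Set G) ∧ ∃ k, y ^ q ^ k = 1

theorem good_iff [Finite G] [hq : Fact q.Prime] {H : Subgroup G} : Good q H ↔
    q ∣ ((centralizer (H : Set G)).subgroupOf (normalizer (H : Set G))).index := by
  constructor
  · rintro ⟨y, hy, hy1, k, hk⟩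
    set u : ↥(normalizer (H : Set G)) ⧸
      (centralizer (H : Set G)).subgroupOf (normalizer (H : Set G)) := QuotientGroup.mk ⟨y, hy⟩
    have h1 : u ^ q ^ k = 1 := by
      rw [← QuotientGroup.mk_pow, show (⟨y, hy⟩ : normalizer (H : Set G)) ^ q ^ k = 1 from
        Subtype.ext hk, QuotientGroup.mk_one]
    obtain ⟨j, -, hj⟩ := (Nat.dvd_prime_pow hq.out).mp (orderOf_dvd_of_pow_eq_one h1)
    rcases j with _ | j
    · exact absurd (mem_subgroupOf.mp ((QuotientGroup.eq_one_iff _).mp
        (orderOf_eq_one_iff.mp (by simpa using hj)))) hy1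
    · exact (dvd_pow_self q j.succ_ne_zero).trans (hj ▸ orderOf_dvd_natCard u)
  · intro h
    obtain ⟨y, -, hy1, k, hk⟩ := exists_q_elt (q := q) (QuotientGroup.mk'
      ((centralizer (H : Set G)).subgroupOf (normalizer (H : Set G)))) ⊤ (by
        rw [map_top_of_surjective _ (QuotientGroup.mk'_surjective _), card_top]; exact h)
    exact ⟨y, y.2, fun h => hy1 ((QuotientGroup.eq_one_iff _).mpr h), k, congrArg Subtype.val hk⟩

theorem psolv_of_ker_le [hp : Fact p.Prime] {L A B : Type*} [Group L] [Group A] [Group B]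
    (α : L →* A) (β : L →* B) (hβ : Function.Surjective β) (h : α.ker ≤ β.ker)
    (hA : IsPSolvable p A) : IsPSolvable p B := by
  refine PSolv.of_surjective (PSolv.of_injective hA _ (QuotientGroup.kerLift_injective α))
    (QuotientGroup.lift α.ker β h) fun b => ?_
  obtain ⟨a, rfl⟩ := hβ b
  exact ⟨a, rfl⟩

theorem le_norm_lift {X : Type*} [Group X] {L : Subgroup G} (f : L →* X) (K : Subgroup X) :
    ((normalizer (K : Set X)).comap f).map L.subtype ≤
      normalizer (((K.comap f).map L.subtype : Subgroup G) : Set G) :=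
  (map_mono (le_normalizer_comap f)).trans (le_normalizer_map _)

theorem Sol.section [hp : Fact p.Prime] (h : Sol p G) {X : Type*} [Group X] {L : Subgroup G}
    (f : L →* X) (hf : Function.Surjective f) (hk : IsPGroup p f.ker) : Sol p X := by
  intro K hK
  set H := (K.comap f).map L.subtype with hH
  set U := (normalizer (K : Set X)).comap f with hU
  let α : U →* normalizer (H : Set G) :=
    (L.subtype.comp U.subtype).codRestrict _ fun x => le_norm_lift f K (mem_map_of_mem _ x.2)
  refine psolv_of_ker_le ((QuotientGroup.mk' _).comp α)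
    ((QuotientGroup.mk' _).comp (f.subgroupComap _))
    ((QuotientGroup.mk'_surjective _).comp (f.subgroupComap_surjective_of_surjective _ hf))
    (fun x hx => ?_) (h H ((hK.comap_of_ker_isPGroup f hk).map _))
  rw [MonoidHom.mem_ker, MonoidHom.comp_apply, QuotientGroup.mk'_apply,
    QuotientGroup.eq_one_iff, mem_subgroupOf] at hx ⊢
  intro k hk'
  obtain ⟨k, rfl⟩ := hf k
  have := hx k (mem_map_of_mem L.subtype hk')
  change f k * f x = f x * f k
  rw [← map_mul, ← map_mul]
  exact congrArg f (Subtype.ext this)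

theorem main [hp : Fact p.Prime] [hq : Fact q.Prime] (hpq : p ≠ q)
    (h23 : ¬ ((p = 2 ∧ q = 3) ∨ (p = 3 ∧ q = 2))) (n : ℕ) :
    ∀ (G : Type u) [Group G] [Finite G], Nat.card G = n → Sol p G →
      ∀ H : Subgroup G, IsPGroup p H → Good q H →
        ∃ K : Subgroup G, IsPGroup p K ∧ Good q K ∧ ¬ p ∣ (normalizer (K : Set G)).index := by
  induction n using Nat.strong_induction_on with
  | _ n ih =>
  intro G _ _ hn hsol H0 hH0 hg0
  let v : Subgroup G → ℕ := fun H => (Nat.card (normalizer (H : Set G))).factorization p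
  obtain ⟨H1, ⟨hH1, hg1⟩, hm1⟩ := Set.exists_max_image {H : Subgroup G | IsPGroup p H ∧ Good q H} v
    (Set.toFinite _) ⟨H0, hH0, hg0⟩
  obtain ⟨H, ⟨⟨hH, hg⟩, hv⟩, hm2⟩ := Set.exists_max_image
    {H : Subgroup G | (IsPGroup p H ∧ Good q H) ∧ v H = v H1} (fun H => Nat.card H)
    (Set.toFinite _) ⟨H1, ⟨hH1, hg1⟩, rfl⟩
  have hm : ∀ K : Subgroup G, IsPGroup p K → Good q K → v K ≤ v H := fun K a b =>
    hv ▸ hm1 K ⟨a, b⟩
  refine ⟨H, hH, hg, fun hdiv => ?_⟩
  set N := normalizer (H : Set G) with hN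
  have hC : (centralizer (H : Set G)).subgroupOf N = centralizer (H.subgroupOf N : Set N) := by
    ext x
    rw [mem_subgroupOf]
    exact ⟨fun h a ha => Subtype.ext (h a ha), fun h a ha =>
      congrArg Subtype.val (h ⟨a, le_normalizer ha⟩ ha)⟩
  have hd := good_iff.mp hg
  have hs := hsol H hH
  have hH' : IsPGroup p (H.subgroupOf N) := hH.comap_subtype
  have hmap : (H.subgroupOf N).map N.subtype = H := by
    rw [subgroupOf_map_subtype, inf_eq_left.mpr le_normalizer]
  have hNs : IsPSolvable p N := by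
    obtain ⟨A, hA, hHA, hAi, ⟨y, hy, hy1, k, hk⟩, hfin⟩ := frat (q := q) hH' (hC ▸ hd)
    refine hfin ?_ (PSolv.of_equiv hs (QuotientGroup.quotientMulEquivOfEq hC))
    have hHA' : H ≤ A.map N.subtype := hmap ▸ map_mono hHA
    have gA : Good q (A.map N.subtype) := ⟨y, le_normalizer_map _ (mem_map_of_mem _ hy),
      fun h => hy1 (hC ▸ mem_subgroupOf.mpr (centralizer_le hHA' h)), k, congrArg Subtype.val hk⟩
    have vA : v H ≤ v (A.map N.subtype) := by
      refine le_trans ?_ (fact_le (le_normalizer_map N.subtype))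
      rw [card_map_of_injective N.subtype_injective, fact_eq hAi]
    have := hm2 (A.map N.subtype) ⟨⟨hA.map _, gA⟩,
      hv ▸ le_antisymm (hm _ (hA.map _) gA) vA⟩
    rw [eq_of_le_of_card_ge hHA' this]
    exact fun x hx => mem_subgroupOf.mpr (mem_map_of_mem _ hx)
  obtain ⟨P, W, hP, hW, hWP, hPW, hHP, y, hy1, ⟨k, hk⟩, hyW⟩ :=
    loc h23 hNs hH' (hC ▸ hd) N.subtype N.subtype_injective
  rw [hmap] at hHP
  have hy1' : (y : G) ∉ centralizer (H : Set G) := fun h => hy1 (hC ▸ mem_subgroupOf.mpr h)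
  have hk' : (y : G) ^ q ^ k = 1 := congrArg Subtype.val hk
  have hW2 : IsPGroup p W := (IsPGroup.of_card hP).to_le hWP
  set L := normalizer (W : Set G) with hL
  have hvW : v H < v W := by
    have h1 : p ^ (v H + 1) ∣ Nat.card G := by
      rw [← N.card_mul_index, pow_succ]
      exact Nat.mul_dvd_mul (Nat.ordProj_dvd _ _) hdiv
    have h2 := (Sylow.prime_pow_dvd_card_normalizer h1 hP).trans (card_dvd_of_le hPW)
    exact (hp.out.pow_dvd_iff_le_factorization Nat.card_pos.ne').mp h2
  by_cases hyC : (y : G) ∈ centralizer (W : Set G)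
  swap
  · exact absurd (hm W hW2 ⟨y, hyW, hyC, k, hk'⟩) (not_le.mpr hvW)
  have hHL : H ≤ L := hHP.trans (le_normalizer.trans hPW)
  let f := QuotientGroup.mk' (W.subgroupOf L)
  have hf : Function.Surjective f := QuotientGroup.mk'_surjective _
  have hfk : IsPGroup p f.ker := by rw [QuotientGroup.ker_mk']; exact hW2.comap_subtype
  obtain ⟨K, hK, ⟨u, hu, hu1, j, hj⟩, hKi⟩ := ih (Nat.card (L ⧸ W.subgroupOf L)) (by
      rw [← hn]
      refine lt_of_lt_of_le ?_ (card_le_card_group L)
      rw [(W.subgroupOf L).card_eq_card_quotient_mul_card_subgroup]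
      refine lt_mul_of_one_lt_right Nat.card_pos ((one_lt_card_iff_ne_bot _).mpr fun h => hW ?_)
      rw [subgroupOf_eq_bot, disjoint_iff, inf_eq_left.mpr le_normalizer] at h
      exact h) _ rfl (hsol.section f hf hfk) ((H.subgroupOf L).map f)
    (hH.comap_subtype.map f) ⟨f ⟨y, hyW⟩, le_normalizer_map f (mem_map_of_mem f
      (le_normalizer_comap L.subtype y.2)), fun hc => hy1' fun h hh => by
        have h1 := hc (f ⟨h, hHL hh⟩) (mem_map_of_mem f (mem_subgroupOf.mpr hh))
        rw [← map_mul, ← map_mul] at h1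
        have h2 : (h * y)⁻¹ * (y * h) ∈ W := mem_subgroupOf.mp (QuotientGroup.eq.mp h1)
        set w := (h * y)⁻¹ * (y * h) with hw
        have h3 : Commute w y := hyC w h2
        have h4 : h⁻¹ * y * h = y * w := by rw [hw]; group
        have h5 : (y * w) ^ q ^ k = 1 := by
          rw [← h4, show h⁻¹ * (y : G) * h = h⁻¹ * y * h⁻¹⁻¹ by simp, conj_pow, hk']; simp
        rw [h3.symm.mul_pow, hk', one_mul] at h5
        obtain ⟨i, hi⟩ := hW2 ⟨w, h2⟩
        have h6 := Nat.dvd_gcd (orderOf_dvd_of_pow_eq_one (show w ^ p ^ i = 1 from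
          congrArg Subtype.val hi)) (orderOf_dvd_of_pow_eq_one h5)
        rw [Nat.coprime_pow_primes i k hp.out hq.out hpq, Nat.dvd_one, orderOf_eq_one_iff] at h6
        exact inv_mul_eq_one.mp h6, k, by
          rw [← map_pow, show (⟨y, hyW⟩ : L) ^ q ^ k = 1 from Subtype.ext hk', map_one]⟩
  obtain ⟨a, rfl⟩ := hf u
  obtain ⟨b, -, hb, i, hi⟩ := exists_lift (q := q) f a hj
  have gK : Good q ((K.comap f).map L.subtype) := by
    refine ⟨b, le_norm_lift f K (mem_map_of_mem _ (mem_comap.mpr (hb ▸ hu))), fun hc => hu1 ?_, i,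
      congrArg Subtype.val hi⟩
    intro c hc'
    obtain ⟨c, rfl⟩ := hf c
    rw [← hb, ← map_mul, ← map_mul]
    exact congrArg f (Subtype.ext (hc c (mem_map_of_mem L.subtype hc')))
  have vK : v W ≤ v ((K.comap f).map L.subtype) := by
    refine le_trans ?_ (fact_le (le_norm_lift f K))
    rw [card_map_of_injective L.subtype_injective, fact_eq (by rwa [index_comap_of_surjective _ hf])]
  exact absurd (vK.trans (hm _ ((hK.comap_of_ker_isPGroup f hfk).map _) gK)) (not_le.mpr hvW)

theorem s4411 {G : Type u} [Group G] [Finite G] [hp : Fact p.Prime] [hq : Fact q.Prime]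
    (hpq : p ≠ q) (h23 : ¬ ((p = 2 ∧ q = 3) ∨ (p = 3 ∧ q = 2))) (hsol : Sol p G)
    (H : Subgroup G) (hH : IsPGroup p H)
    (hd : q ∣ ((centralizer (H : Set G)).subgroupOf (normalizer (H : Set G))).index)
    (Gp : Sylow p G) :
    ∃ K : Subgroup G, K ≤ (Gp : Subgroup G) ∧ (Gp : Subgroup G) ≤ normalizer (K : Set G) ∧
      q ∣ ((centralizer (K : Set G)).subgroupOf (normalizer (K : Set G))).index := by
  obtain ⟨K, hK, ⟨y, hy, hy1, k, hk⟩, hKi⟩ := main hpq h23 _ G rfl hsol H hH (good_iff.mpr hd)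
  obtain ⟨S, hS⟩ := (hK.comap_subtype (K := normalizer (K : Set G))).exists_le_sylow
  have hc : Nat.card ((S : Subgroup (normalizer (K : Set G))).map (normalizer (K : Set G)).subtype)
      = p ^ (Nat.card G).factorization p := by
    rw [card_map_of_injective (subtype_injective _), S.card_eq_multiplicity, fact_eq hKi]
  obtain ⟨g, hg⟩ := MulAction.exists_smul_eq G (Sylow.ofCard _ hc) Gp
  have hGp : (Gp : Subgroup G) = ((S : Subgroup (normalizer (K : Set G))).map
      (normalizer (K : Set G)).subtype).map (MulAut.conj g).toMonoidHom := by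
    rw [← hg]; rfl
  refine ⟨K.map (MulAut.conj g).toMonoidHom, ?_, ?_, good_iff.mp ⟨g * y * g⁻¹,
    le_normalizer_map _ (mem_map_of_mem (MulAut.conj g).toMonoidHom hy), fun hc => hy1 ?_, k,
    by rw [conj_pow, hk]; simp⟩⟩
  · rw [hGp]
    exact map_mono fun x hx => ⟨⟨x, le_normalizer hx⟩, hS hx, rfl⟩
  · rw [hGp]
    exact (map_mono (map_subtype_le _)).trans (le_normalizer_map _)
  · intro x hx
    have := hc _ (mem_map_of_mem (MulAut.conj g).toMonoidHom hx)
    apply (MulAut.conj g).injective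
    rw [map_mul, map_mul]
    exact this

end CfsgLib.QAut
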